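import Cfsg.Prelude.Def_Characters
import Cfsg.Agent.H4.CharBasic
import Cfsg.Agent.H31.IndFun

set_option autoImplicit false

namespace Cfsg.Agent.H31

open scoped ComplexConjugate

/-- Orthogonality of distinct irreducible characters (sum form). -/
theorem irr_sum_mul_conj_eq_zero {G : Type*} [Group G] [Fintype G] (φ ψ : G → ℂ)
    (hφ : Cfsg.IsIrrCharacter G φ) (hψ : Cfsg.IsIrrCharacter G ψ) (hne : φ ≠ ψ) :
    ∑ g : G, φ g * conj (ψ g) = 0 := by
  obtain ⟨n, ρ, hρ, rfl⟩ := hφ
  obtain ⟨m, σ, hσ, rfl⟩ := hψ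
  have : Invertible (Nat.card G : ℂ) := invertibleOfNonzero (by exact_mod_cast Nat.card_pos.ne')
  have h := Representation.char_orthonormal ρ σ
  have hemp : ¬ Nonempty (Representation.Equiv σ ρ) :=
    fun ⟨e⟩ => hne (Representation.char_iso e).symm
  rw [if_neg hemp] at h
  have hne0 : (Nat.card G : ℂ)⁻¹ ≠ 0 := inv_ne_zero (by exact_mod_cast Nat.card_pos.ne')
  have h2 : ∑ g, ρ.character g * σ.character g⁻¹ = 0 := by
    simpa using h
  rw [← h2]
  apply Finset.sum_congr rfl
  intro g _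
  rw [Cfsg.Agent.H4.character_inv]

/-- Norm one for an irreducible character (sum form). -/
theorem irr_sum_mul_conj_self {G : Type*} [Group G] [Fintype G] (φ : G → ℂ)
    (hφ : Cfsg.IsIrrCharacter G φ) :
    ∑ g : G, φ g * conj (φ g) = (Nat.card G : ℂ) := by
  obtain ⟨n, ρ, hρ, rfl⟩ := hφ
  have : Invertible (Nat.card G : ℂ) := invertibleOfNonzero (by exact_mod_cast Nat.card_pos.ne')
  have h := Representation.char_orthonormal ρ ρ
  have hemp : Nonempty (Representation.Equiv ρ ρ) := ⟨Representation.Equiv.refl ρ⟩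
  rw [if_pos hemp] at h
  have hne0 : (Nat.card G : ℂ) ≠ 0 := by exact_mod_cast Nat.card_pos.ne'
  have h2 : ∑ g, ρ.character g * ρ.character g⁻¹ = (Nat.card G : ℂ) := by
    have h3 : (Nat.card G : ℂ)⁻¹ * ∑ g, ρ.character g * ρ.character g⁻¹ = 1 := by simpa using h
    field_simp at h3
    exact h3
  rw [← h2]
  apply Finset.sum_congr rfl
  intro g _
  rw [Cfsg.Agent.H4.character_inv]

/-- A conjugate of an irreducible character of a normal subgroup is an irreducible character. -/
theorem conj_irr {G : Type*} [Group G] (H : Subgroup G) [hN : H.Normal] (θ : H → ℂ)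
    (hθ : Cfsg.IsIrrCharacter H θ) (g : G) :
    Cfsg.IsIrrCharacter H (fun h : H => θ ⟨g * h * g⁻¹, hN.conj_mem h h.2 g⟩) := by
  obtain ⟨n, ρ, hρ, rfl⟩ := hθ
  let c : H →* H := (MulAut.conjNormal g : MulAut H).toMonoidHom
  let c' : H →* H := (MulAut.conjNormal g⁻¹ : MulAut H).toMonoidHom
  have hcc' : ∀ h : H, c (c' h) = h := by
    intro h
    apply Subtype.ext
    simp [c, c']
  refine ⟨n, ρ.comp c, ?_, ?_⟩
  · have e : Subrepresentation (ρ.comp c) ≃o Subrepresentation ρ :=
      { toFun := fun W => ⟨W.toSubmodule, fun h v hv => by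
          have := W.apply_mem_toSubmodule (c' h) hv
          simpa [hcc'] using this⟩
        invFun := fun W => ⟨W.toSubmodule, fun h v hv => W.apply_mem_toSubmodule (c h) hv⟩
        left_inv := fun W => rfl
        right_inv := fun W => rfl
        map_rel_iff' := Iff.rfl }
    exact e.isSimpleOrder_iff.mpr hρ
  · funext h
    show LinearMap.trace ℂ _ (ρ (c h)) = LinearMap.trace ℂ _ (ρ ⟨g * h * g⁻¹, hN.conj_mem h h.2 g⟩)
    congr 2

/-- An induced function is a class function. -/
theorem indFun_conj {G : Type*} [Group G] [Fintype G] (H : Subgroup G) (θ : H → ℂ) (y z : G) :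
    Cfsg.indFun H θ (z * y * z⁻¹) = Cfsg.indFun H θ y := by
  unfold Cfsg.indFun
  congr 1
  rw [← Equiv.sum_comp (Equiv.mulLeft z)]
  apply Finset.sum_congr rfl
  intro x _
  congr 1
  simp only [Equiv.coe_mulLeft]
  group

/-- Sum of an extended-by-zero function against another function. -/
theorem sum_extendByZero_mul {G : Type*} [Group G] [Fintype G] (H : Subgroup G) [Fintype H]
    (φ : H → ℂ) (c : G → ℂ) :
    ∑ g : G, Cfsg.extendByZero H φ g * c g = ∑ h : H, φ h * c h := by
  classical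
  symm
  apply Finset.sum_of_injOn (fun h : H => (h : G))
  · exact Subtype.val_injective.injOn
  · intro x _; exact Finset.mem_coe.mpr (Finset.mem_univ _)
  · intro g _ hg
    have : g ∉ H := by
      intro hgH
      apply hg
      exact ⟨⟨g, hgH⟩, Finset.mem_coe.mpr (Finset.mem_univ _), rfl⟩
    rw [extendByZero_not_mem H φ g this, zero_mul]
  · intro h _
    rw [extendByZero_mem H φ h h.2]

/-- Frobenius reciprocity (sum form): for a class function `F` on `G`,
`∑_g (Ind φ)(g) * c(g) = |G|/|H| ∑_h φ(h) c(h)` when `c` is a class function. -/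
theorem sum_indFun_mul {G : Type*} [Group G] [Fintype G] (H : Subgroup G) [Fintype H]
    (φ : H → ℂ) (c : G → ℂ) (hc : ∀ y z : G, c (z * y * z⁻¹) = c y) :
    ∑ g : G, Cfsg.indFun H φ g * c g =
      (Nat.card H : ℂ)⁻¹ * (Nat.card G : ℂ) * ∑ h : H, φ h * c h := by
  unfold Cfsg.indFun
  have h1 : ∀ g : G, (Nat.card H : ℂ)⁻¹ * (∑ x : G, Cfsg.extendByZero H φ (x⁻¹ * g * x)) * c g =
      (Nat.card H : ℂ)⁻¹ * ∑ x : G, Cfsg.extendByZero H φ (x⁻¹ * g * x) * c (x⁻¹ * g * x) := by
    intro g
    rw [mul_assoc, Finset.sum_mul]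
    congr 1
    apply Finset.sum_congr rfl
    intro x _
    have := hc g x⁻¹
    rw [inv_inv] at this
    rw [this]
  rw [Finset.sum_congr rfl (fun g _ => h1 g), ← Finset.mul_sum, Finset.sum_comm]
  have h2 : ∀ x : G, ∑ g : G, Cfsg.extendByZero H φ (x⁻¹ * g * x) * c (x⁻¹ * g * x) =
      ∑ h : H, φ h * c h := by
    intro x
    rw [← sum_extendByZero_mul H φ c]
    exact Equiv.sum_comp ((Equiv.mulLeft x⁻¹).trans (Equiv.mulRight x))
      (fun g => Cfsg.extendByZero H φ g * c g)
  rw [Finset.sum_congr rfl (fun x _ => h2 x)]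
  simp only [Finset.sum_const, Finset.card_univ, nsmul_eq_mul]
  rw [Nat.card_eq_fintype_card (α := G)]
  ring

end Cfsg.Agent.H31
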